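import Mathlib.Data.ZMod.Basic
import Mathlib.Tactic

/-! Project TH3: bit-sliced arithmetic in `ZMod 3`.  See `notes/TH3.md`. -/

set_option autoImplicit false

namespace Cfsg.Agent.TH3

noncomputable def fN {β : Type} (n : ℕ) (k : ℕ → β) : β := Nat.rec (k 0) (fun m _ => k (Nat.succ m)) n

theorem fN_eq {β : Type} (n : ℕ) (k : ℕ → β) : fN n k = k n := by cases n <;> rfl

/-- a table of values in `ZMod 3` (bits of `p`: value 1, bits of `m`: value 2), or unknown -/
inductive BV
  | u
  | k (p m : ℕ)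

def Rel (i : ℕ) : BV → ZMod 3 → Prop
  | .u, _ => True
  | .k p m, x => p.testBit i = decide (x = 1) ∧ m.testBit i = decide (x = 2)

noncomputable def addB {β : Type} (x y : BV) (κ : BV → β) : β :=
  BV.rec (κ .u) (fun a b => BV.rec (κ .u) (fun c d => fN (Nat.xor (Nat.lor a d) (Nat.lor b c)) fun t =>
    fN (Nat.xor (Nat.lor b d) t) fun p => fN (Nat.xor (Nat.lor a c) t) fun m => κ (.k p m)) y) x

noncomputable def negB (x : BV) : BV := BV.rec .u (fun a b => .k b a) x

noncomputable def zU {β : Type} (a b : ℕ) (κ : BV → β) : β :=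
  Bool.rec (κ .u) (κ (.k 0 0)) (Nat.beq (Nat.lor a b) 0)

noncomputable def mulB {β : Type} (x y : BV) (κ : BV → β) : β :=
  BV.rec (BV.rec (κ .u) (fun c d => zU c d κ) y) (fun a b => BV.rec (zU a b κ) (fun c d =>
    fN (Nat.lor (Nat.land a c) (Nat.land b d)) fun p => fN (Nat.lor (Nat.land a d) (Nat.land b c)) fun m =>
      κ (.k p m)) y) x

/-- a continuation-passing computation returns a value with property `P` -/
def Ret {α β : Type} (c : (α → β) → β) (P : α → Prop) : Prop := ∃ b, (∀ κ, c κ = κ b) ∧ P b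

theorem Ret.bind {α γ β : Type} {c : (α → β) → β} {P : α → Prop} (h : Ret c P) {d : α → (γ → β) → β}
    {Q : γ → Prop} (k : ∀ a, P a → Ret (d a) Q) : Ret (fun κ => c fun a => d a κ) Q :=
  let ⟨b, e, hb⟩ := h
  let ⟨b', e', hb'⟩ := k b hb
  ⟨b', fun κ => (e _).trans (e' κ), hb'⟩

theorem Ret.pure {α β : Type} {P : α → Prop} {a : α} (h : P a) : Ret (β := β) (fun κ => κ a) P :=
  ⟨a, fun _ => rfl, h⟩

theorem Ret.mono {α β : Type} {c : (α → β) → β} {P Q : α → Prop} (h : Ret c P) (k : ∀ a, P a → Q a) : Ret c Q :=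
  h.imp fun a ha => ⟨ha.1, k a ha.2⟩

variable {β : Type} {i : ℕ}

theorem tor (a b : ℕ) : (Nat.lor a b).testBit i = (a.testBit i || b.testBit i) := Nat.testBit_or a b i
theorem tand (a b : ℕ) : (Nat.land a b).testBit i = (a.testBit i && b.testBit i) := Nat.testBit_and a b i
theorem txor (a b : ℕ) : (Nat.xor a b).testBit i = (a.testBit i ^^ b.testBit i) := Nat.testBit_xor a b i

theorem addB_ret {x y : BV} {v w : ZMod 3} (hx : Rel i x v) (hy : Rel i y w) :
    Ret (addB (β := β) x y) fun z => Rel i z (v + w) := by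
  cases x with
  | u => exact ⟨.u, fun _ => rfl, trivial⟩
  | k a b =>
    cases y with
    | u => exact ⟨.u, fun _ => rfl, trivial⟩
    | k c d =>
      refine ⟨_, fun κ => by simp only [addB, fN_eq]; rfl, ?_⟩
      simp only [Rel, tor, txor, hx.1, hx.2, hy.1, hy.2]
      clear hx hy; revert v w; decide

theorem negB_rel {x : BV} {v : ZMod 3} (hx : Rel i x v) : Rel i (negB x) (-v) := by
  cases x with
  | u => trivial
  | k a b =>
    simp only [negB, Rel, hx.1, hx.2]
    clear hx; revert v; decide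

theorem zero_rel : Rel i (.k 0 0) 0 := by simp [Rel]; decide

theorem zU_ret {a b : ℕ} {v w : ZMod 3} (hx : Rel i (.k a b) v) (h : v = 0 → w = 0) :
    Ret (zU (β := β) a b) fun z => Rel i z w := by
  cases e : Nat.beq (Nat.lor a b) 0 with
  | false => exact ⟨.u, fun κ => by simp only [zU, e], trivial⟩
  | true =>
    refine ⟨.k 0 0, fun κ => by simp only [zU, e], ?_⟩
    have h0 := congrArg (·.testBit i) (Nat.eq_of_beq_eq_true e)
    simp only [tor, hx.1, hx.2, Nat.zero_testBit] at h0
    rw [h (by clear hx h; revert v; decide)]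
    exact zero_rel

theorem mulB_ret {x y : BV} {v w : ZMod 3} (hx : Rel i x v) (hy : Rel i y w) :
    Ret (mulB (β := β) x y) fun z => Rel i z (v * w) := by
  cases x with
  | u =>
    cases y with
    | u => exact ⟨.u, fun _ => rfl, trivial⟩
    | k c d => exact zU_ret hy fun e => by rw [e, mul_zero]
  | k a b =>
    cases y with
    | u => exact zU_ret hx fun e => by rw [e, zero_mul]
    | k c d =>
      refine ⟨_, fun κ => by simp only [mulB, fN_eq]; rfl, ?_⟩
      simp only [Rel, tor, tand, hx.1, hx.2, hy.1, hy.2]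
      clear hx hy; revert v w; decide

/-- the constant table -/
noncomputable def cB (N n : ℕ) : BV := Nat.rec (.k 0 0) (fun n _ => Nat.rec (.k N 0) (fun _ _ => .k 0 N) n) n

def cZ : ℕ → ZMod 3
  | 0 => 0
  | 1 => 1
  | _ => 2

theorem cB_rel {N : ℕ} (h : N.testBit i = true) (n : ℕ) : Rel i (cB N n) (cZ n) := by
  rcases n with _ | _ | n
  · exact zero_rel
  · exact ⟨h, Nat.zero_testBit i⟩
  · exact ⟨Nat.zero_testBit i, h⟩

noncomputable def gB (l : List BV) : ℕ → BV :=
  List.rec (fun _ => .u) (fun a _ r n => Nat.rec a (fun m _ => r m) n) l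

/-! ### the tables of the variables -/

def rep (L x : ℕ) : ℕ := Nat.lor (Nat.lor x (Nat.shiftLeft x L)) (Nat.shiftLeft x (Nat.add L L))

noncomputable def repL (L : ℕ) (l : List BV) : (List BV → β) → β :=
  List.rec (fun κ => κ []) (fun a _ r κ => r fun t => BV.rec (κ (.u :: t))
    (fun p m => fN (rep L p) fun p' => fN (rep L m) fun m' => κ (.k p' m' :: t)) a) l

/-- codes: 0 the coordinate is zero, 1 it is enumerated, 2 it is unknown -/
noncomputable def build (cs : List ℕ) : (ℕ × ℕ × List BV → β) → β :=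
  List.rec (fun κ => κ (1, 1, [])) (fun c _ r κ => r fun s => Prod.rec (fun L s => Prod.rec (fun N l =>
    Nat.rec (κ (L, N, .k 0 0 :: l)) (fun c _ => Nat.rec
      (repL L l fun l' => fN (Nat.mul 3 L) fun L' => fN (rep L N) fun N' => fN (Nat.shiftLeft N L) fun p =>
        fN (Nat.shiftLeft N (Nat.add L L)) fun m => κ (L', N', .k p m :: l'))
      (fun _ _ => κ (L, N, .u :: l)) c) c) s) s) cs

def Bd (L x : ℕ) : Prop := ∀ j, L ≤ j → x.testBit j = false

def BdB (L : ℕ) : BV → Prop
  | .u => True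
  | .k p m => Bd L p ∧ Bd L m

theorem tsh (x L j : ℕ) : (Nat.shiftLeft x L).testBit j = (decide (L ≤ j) && x.testBit (j - L)) :=
  Nat.testBit_shiftLeft x

theorem Bd.sh {L x : ℕ} (h : Bd L x) {s : ℕ} (hs : s ≤ 2 * L) : Bd (3 * L) (Nat.shiftLeft x s) := fun j hj => by
  rw [tsh, h _ (by omega), Bool.and_false]

theorem Bd.rep {L x : ℕ} (h : Bd L x) : Bd (3 * L) (rep L x) := fun j hj => by
  rw [TH3.rep, tor, tor, h j (by omega), h.sh (by omega) j hj, h.sh (s := Nat.add L L) (by simp; omega) j hj]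
  rfl

theorem Bd.sh_bit {L x : ℕ} (h : Bd L x) (hi : i < L) {d e : ℕ} (_ : d < 3) (_ : e < 3) :
    (Nat.shiftLeft x (e * L)).testBit (i + d * L) = (decide (d = e) && x.testBit i) := by
  rw [tsh]
  rcases lt_trichotomy d e with k | k | k
  · have : ¬ e * L ≤ i + d * L := by nlinarith
    simp [this, k.ne]
  · subst k; simp
  · have : L ≤ i + d * L - e * L := by
      have : (e + 1) * L ≤ d * L := Nat.mul_le_mul_right L k
      rw [add_mul] at this; omega
    simp [h _ this, k.ne']

theorem Bd.rep_bit {L x : ℕ} (h : Bd L x) (hi : i < L) {d : ℕ} (hd : d < 3) :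
    (TH3.rep L x).testBit (i + d * L) = x.testBit i := by
  have h0 := h.sh_bit hi hd (e := 0) (by omega)
  have h1 := h.sh_bit hi hd (e := 1) (by omega)
  have h2 := h.sh_bit hi hd (e := 2) (by omega)
  rw [zero_mul] at h0
  rw [one_mul] at h1
  rw [two_mul] at h2
  change x.testBit _ = _ at h0
  rw [TH3.rep, tor, tor, h0, h1]
  refine (congrArg _ h2).trans ?_
  interval_cases d <;> simp

theorem repL_ret {L : ℕ} (l : List BV) (h : ∀ j, BdB L (gB l j)) : Ret (repL (β := β) L l) fun l' =>
    (∀ j, BdB (3 * L) (gB l' j)) ∧ ∀ i < L, ∀ d < 3, ∀ j x, Rel i (gB l j) x → Rel (i + d * L) (gB l' j) x := by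
  induction l with
  | nil => exact ⟨[], fun _ => rfl, fun _ => trivial, fun _ _ _ _ _ _ _ => trivial⟩
  | cons a l ih =>
    obtain ⟨t, e, h1, h2⟩ := ih fun j => h (j + 1)
    have h0 : BdB L a := h 0
    cases a with
    | u =>
      refine ⟨.u :: t, fun κ => e _, fun j => ?_, fun i hi d hd j x k => ?_⟩
      · cases j with
        | zero => trivial
        | succ j => exact h1 j
      · cases j with
        | zero => trivial
        | succ j => exact h2 i hi d hd j x k
    | k p m =>
      refine ⟨.k (rep L p) (rep L m) :: t, fun κ => (e _).trans (by simp only [fN_eq]), fun j => ?_,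
        fun i hi d hd j x k => ?_⟩
      · cases j with
        | zero => exact ⟨h0.1.rep, h0.2.rep⟩
        | succ j => exact h1 j
      · cases j with
        | zero => exact ⟨(h0.1.rep_bit hi hd).trans k.1, (h0.2.rep_bit hi hd).trans k.2⟩
        | succ j => exact h2 i hi d hd j x k

theorem build_ret (cs : List ℕ) : Ret (build (β := β) cs) fun s => Bd s.1 s.2.1 ∧ (∀ j, BdB s.1 (gB s.2.2 j)) ∧
    ∀ x : ℕ → ZMod 3, (∀ j, cs.getD j 2 = 0 → x j = 0) →
      ∃ i < s.1, s.2.1.testBit i = true ∧ ∀ j, Rel i (gB s.2.2 j) (x j) := by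
  induction cs with
  | nil =>
    refine ⟨(1, 1, []), fun _ => rfl, fun j hj => ?_, fun _ => trivial, fun x _ => ⟨0, one_pos, rfl, fun _ => trivial⟩⟩
    exact Nat.testBit_lt_two_pow (Nat.one_lt_two_pow (by dsimp only at hj; omega))
  | cons c cs ih =>
    obtain ⟨⟨L, N, l⟩, e, h1, h2, h3⟩ := ih
    have z : Bd L 0 := fun j _ => Nat.zero_testBit j
    rcases c with _ | _ | c
    · refine ⟨(L, N, .k 0 0 :: l), fun κ => e _, h1, fun j => ?_, fun x hx => ?_⟩
      · cases j with
        | zero => exact ⟨z, z⟩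
        | succ j => exact h2 j
      · obtain ⟨i, a, b, k⟩ := h3 (fun j => x (j + 1)) fun j => hx (j + 1)
        refine ⟨i, a, b, fun j => ?_⟩
        cases j with
        | zero => rw [hx 0 rfl]; exact zero_rel
        | succ j => exact k j
    · obtain ⟨l', e', k1, k2⟩ := repL_ret (β := β) l h2
      refine ⟨(3 * L, rep L N, .k (Nat.shiftLeft N L) (Nat.shiftLeft N (Nat.add L L)) :: l'),
        fun κ => (e _).trans ((e' _).trans (by simp only [fN_eq]; rfl)), Bd.rep h1, fun j => ?_, fun x hx => ?_⟩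
      · cases j with
        | zero => exact ⟨Bd.sh h1 (by omega), Bd.sh h1 (s := Nat.add L L) (by simp; omega)⟩
        | succ j => exact k1 j
      · obtain ⟨i, a, b, k⟩ := h3 (fun j => x (j + 1)) fun j => hx (j + 1)
        have hd : (x 0).val < 3 := ZMod.val_lt _
        dsimp only at a b k
        refine ⟨i + (x 0).val * L, by dsimp only; nlinarith, (Bd.rep_bit h1 a hd).trans b, fun j => ?_⟩
        cases j with
        | zero =>
          have a1 := Bd.sh_bit h1 a hd (e := 1) (by omega)
          have a2 := Bd.sh_bit h1 a hd (e := 2) (by omega)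
          rw [one_mul, b] at a1
          rw [two_mul, b] at a2
          refine ⟨a1.trans ?_, a2.trans ?_⟩ <;> generalize x 0 = y <;> revert y <;> decide
        | succ j => exact k2 i a _ hd j _ (k j)
    · refine ⟨(L, N, .u :: l), fun κ => e _, h1, fun j => ?_, fun x hx => ?_⟩
      · cases j with
        | zero => trivial
        | succ j => exact h2 j
      · obtain ⟨i, a, b, k⟩ := h3 (fun j => x (j + 1)) fun j => hx (j + 1)
        refine ⟨i, a, b, fun j => ?_⟩
        cases j with
        | zero => trivial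
        | succ j => exact k j

end Cfsg.Agent.TH3
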