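import Cfsg.Agent.TH3.CertD

set_option autoImplicit false
set_option Elab.async false
set_option maxRecDepth 100000
set_option exponentiation.threshold 400000

namespace Cfsg.Agent.TH3

open Cfsg.Agent.H17

theorem cert_0_3 : meqAt ThR.E 62 (ThR.mats ++ ThRS.ex) ((pp.drop 0).take 3) 3 = true := by decide +kernel
theorem cert_3_3 : meqAt ThR.E 62 (ThR.mats ++ ThRS.ex) ((pp.drop 3).take 5) 3 = true := by decide +kernel
theorem cert_8_3 : meqAt ThR.E 62 (ThR.mats ++ ThRS.ex) ((pp.drop 8).take 5) 3 = true := by decide +kernel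
theorem cert_13_3 : meqAt ThR.E 62 (ThR.mats ++ ThRS.ex) ((pp.drop 13).take 6) 3 = true := by decide +kernel
theorem cert_19_3 : meqAt ThR.E 62 (ThR.mats ++ ThRS.ex) ((pp.drop 19).take 2) 3 = true := by decide +kernel
theorem cert_21_3 : meqAt ThR.E 62 (ThR.mats ++ ThRS.ex) ((pp.drop 21).take 2) 3 = true := by decide +kernel
theorem cert_23_3 : meqAt ThR.E 62 (ThR.mats ++ ThRS.ex) ((pp.drop 23).take 4) 3 = true := by decide +kernel

end Cfsg.Agent.TH3
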