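import Cfsg.Agent.TH3.CertD

set_option autoImplicit false
set_option Elab.async false
set_option maxRecDepth 100000
set_option exponentiation.threshold 400000

namespace Cfsg.Agent.TH3

open Cfsg.Agent.H17

theorem cert_27_2 : meqAt ThR.E 62 (ThR.mats ++ ThRS.ex) ((pp.drop 27).take 2) 2 = true := by decide +kernel
theorem cert_29_2 : meqAt ThR.E 62 (ThR.mats ++ ThRS.ex) ((pp.drop 29).take 4) 2 = true := by decide +kernel
theorem cert_33_2 : meqAt ThR.E 62 (ThR.mats ++ ThRS.ex) ((pp.drop 33).take 3) 2 = true := by decide +kernel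
theorem cert_36_2 : meqAt ThR.E 62 (ThR.mats ++ ThRS.ex) ((pp.drop 36).take 4) 2 = true := by decide +kernel
theorem cert_40_2 : meqAt ThR.E 62 (ThR.mats ++ ThRS.ex) ((pp.drop 40).take 3) 2 = true := by decide +kernel
theorem cert_43_2 : meqAt ThR.E 62 (ThR.mats ++ ThRS.ex) ((pp.drop 43).take 10) 2 = true := by decide +kernel
theorem cert_53_2 : meqAt ThR.E 62 (ThR.mats ++ ThRS.ex) ((pp.drop 53).take 2) 2 = true := by decide +kernel

end Cfsg.Agent.TH3
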