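import Cfsg.Agent.H17.ThE
import Cfsg.Agent.TH3.Grp

/-! Project TH3: the relations of the model as words in the matrices of the Thompson group. -/

set_option autoImplicit false

namespace Cfsg.Agent.TH3

open Cfsg.Agent.H58

def wW : List (List ℕ) → List ℕ → List ℕ
  | w :: l, e :: es => (List.replicate (e % 3) w).flatten ++ wW l es
  | _, _ => []

def prs : List (List ℕ) → List (List ℕ × List (List ℕ)) → List (List ℕ × List ℕ)
  | w :: l, d :: r => (w ++ (w ++ w), wW l d.1) :: (List.zipWith (fun y c => (y ++ w, w ++ wW l c)) l d.2 ++ prs l r)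
  | _, _ => []

def lenOK : List (List ℕ) → List (List ℕ × List (List ℕ)) → Bool
  | [], _ => true
  | _ :: _, [] => false
  | _ :: l, d :: r => lenOK l r && l.length == d.2.length

variable {G : Type*} [Group G] (el : ℕ → G)

theorem wv_app (a b : List ℕ) : wv el (a ++ b) = wv el a * wv el b := by simp [wv]

theorem wv_wW : ∀ (l : List (List ℕ)) (es : List ℕ), wv el (wW l es) = wd (l.map (wv el)) es
  | [], _ => by simp [wW, wd, wv]
  | _ :: _, [] => by simp [wW, wd, wv]
  | w :: l, e :: es => by
    rw [wW, wv_app, wv_wW l es, List.map_cons, wd]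
    congr 1
    induction e % 3 with
    | zero => simp [wv]
    | succ n ih => rw [List.replicate_succ, List.flatten_cons, wv_app, ih, pow_succ']

theorem good_of_prs : ∀ (l : List (List ℕ)) (d : List (List ℕ × List (List ℕ))), lenOK l d = true →
    (∀ q ∈ prs l d, wv el q.1 = wv el q.2) → Good (l.map (wv el)) d
  | [], _, _, _ => trivial
  | _ :: _, [], k, _ => nomatch k
  | w :: l, d :: r, k, e => by
    simp only [lenOK, Bool.and_eq_true, beq_iff_eq] at k
    refine ⟨good_of_prs l r k.1 fun q hq => e q (by simp [prs, hq]), ?_,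
      List.forall₂_iff_get.2 ⟨by simpa using k.2, fun n h1 h2 => ?_⟩⟩
    · have := e _ List.mem_cons_self
      rwa [wv_wW, wv_app, wv_app, ← pow_three] at this
    · have h3 : n < l.length := by simpa using h1
      have := e (l[n] ++ w, w ++ wW l d.2[n]) (List.mem_cons_of_mem _ (List.mem_append_left _
        (List.mem_iff_getElem.2 ⟨n, by simpa using ⟨h3, h2⟩, by simp⟩)))
      rw [wv_app, wv_app, wv_wW] at this
      simpa using this

def words : List (List ℕ) := [[17], [21, 22, 22], [15, 15, 21, 22, 22, 17, 21, 22, 22, 21, 22, 22, 17, 17, 21, 18, 20, 22, 17, 21, 22, 22], [17, 21, 22, 22, 15, 17, 21, 22, 22, 21, 22, 22, 17, 15, 15], [21, 18, 20, 22, 17, 21, 18, 20, 22, 17, 21, 22, 22, 21, 18, 20, 22, 17, 21, 22, 22, 21, 22, 22], [21, 22, 22, 17, 17, 21, 22, 22, 17, 21, 22, 22, 15, 21, 22, 22, 17, 21, 22, 22, 17, 17, 15, 21, 22, 22], [15], [21, 22, 22, 21, 22, 22, 21, 22, 22], [20, 20, 20], [16]]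

def pp : List (List ℕ × List ℕ) := prs words pres

end Cfsg.Agent.TH3
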