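import Cfsg.Agent.TH3.Bit

/-! Project TH3: the multiplication of the model and the reflective checker.  See `notes/TH3.md`. -/

set_option autoImplicit false

namespace Cfsg.Agent.TH3

inductive PE
  | v (k : ℕ)
  | t
  | add (a b : PE)
  | sub (a b : PE)
  | mul (a b : PE)

def PE.ev (a : ℕ → ZMod 3) (t : ZMod 3) : PE → ZMod 3
  | .v k => a k
  | .t => t
  | .add x y => x.ev a t + y.ev a t
  | .sub x y => x.ev a t + -y.ev a t
  | .mul x y => x.ev a t * y.ev a t

/-- row `j`: the coordinates of `a * h_j ^ t` -/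
def Rs : List (List PE) := [
  [.add (.v 0) .t,
    .v 1,
    .v 2,
    .add (.v 3) (.mul .t (.v 1)),
    .sub (.v 4) (.mul .t (.add (.v 1) (.mul (.v 1) (.v 1)))),
    .sub (.v 5) (.mul .t (.add (.mul .t (.v 1)) (.sub (.v 2) (.v 3)))),
    .sub (.v 6) (.mul .t (.add (.mul (.v 1) (.add (.sub .t (.mul .t (.v 1))) (.v 2))) (.add (.v 2) (.sub (.v 3) (.v 4))))),
    .sub (.v 7) (.mul .t (.add (.add (.v 1) (.mul (.v 1) (.sub (.add (.v 1) (.mul (.v 1) (.sub .t (.add (.v 2) (.v 3))))) (.v 3)))) (.v 3))),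
    .sub (.v 8) (.mul .t (.add (.mul (.v 1) (.add (.sub .t (.mul .t (.add (.add (.v 1) (.mul (.v 1) (.sub (.v 2) (.v 3)))) (.add (.v 3) (.v 4))))) (.sub (.add (.v 2) (.mul (.v 2) (.add (.v 1) (.v 3)))) (.add (.add (.v 3) (.mul (.v 3) (.v 3))) (.v 1))))) (.add (.add (.v 2) (.mul (.v 2) (.sub .t (.add (.v 3) (.v 4))))) (.sub (.mul (.v 3) (.add .t (.v 4))) (.sub (.v 4) (.sub (.v 5) (.v 7))))))),
    .sub (.v 9) (.mul .t (.add (.mul (.v 1) (.add (.sub (.v 1) (.mul (.v 1) (.add (.mul (.v 3) (.sub .t (.sub (.v 2) (.v 3)))) (.add (.add (.v 4) (.mul (.v 4) (.v 4))) (.add .t (.v 2)))))) (.sub (.sub (.v 2) (.mul (.v 2) (.add .t (.add (.v 3) (.v 4))))) (.add (.add (.v 3) (.mul (.v 3) (.sub .t (.v 3)))) (.add (.v 4) (.mul (.v 4) (.add .t (.v 4)))))))) (.add (.sub (.v 3) (.mul (.v 3) (.add (.v 2) (.sub (.v 3) (.v 4))))) (.sub (.sub (.v 2) (.mul (.v 2) (.v 2))) (.mul (.v 4) (.v 4))))))],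
  [.v 0,
    .add (.v 1) .t,
    .v 2,
    .v 3,
    .add (.v 4) (.mul .t (.v 3)),
    .v 5,
    .add (.v 6) (.mul .t (.add (.v 2) (.v 5))),
    .sub (.v 7) (.mul .t (.add (.add (.v 1) (.mul (.v 1) (.add .t (.v 1)))) (.sub (.add (.v 2) (.mul (.v 2) .t)) (.sub (.add (.v 3) (.mul (.v 3) (.v 3))) (.sub (.add (.v 5) (.mul (.v 5) .t)) (.v 6)))))),
    .sub (.v 8) (.mul .t (.sub (.sub (.v 2) (.mul (.v 2) (.v 3))) (.sub (.v 3) (.v 5)))),
    .sub (.v 9) (.mul .t (.add (.add (.v 3) (.mul (.v 3) (.sub (.sub .t (.mul .t (.add (.sub (.v 3) (.mul (.v 3) (.v 4))) (.v 1)))) (.sub (.add (.v 1) (.mul (.v 1) (.v 1))) (.sub (.add (.v 4) (.mul (.v 4) (.v 4))) (.v 3)))))) (.sub (.add (.v 4) (.mul (.v 4) (.v 2))) (.add (.v 5) (.add (.v 6) (.v 8))))))],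
  [.v 0,
    .v 1,
    .add (.v 2) .t,
    .v 3,
    .v 4,
    .v 5,
    .sub (.v 6) (.mul .t (.v 3)),
    .sub (.v 7) (.mul .t (.add (.v 3) (.v 4))),
    .add (.v 8) (.mul .t (.add (.mul (.v 3) (.v 3)) (.v 4))),
    .add (.v 9) (.mul .t (.sub (.add (.v 3) (.mul (.v 3) (.add (.v 3) (.v 4)))) (.sub (.v 4) (.v 5))))],
  [.v 0,
    .v 1,
    .v 2,
    .add (.v 3) .t,
    .v 4,
    .v 5,
    .v 6,
    .sub (.v 7) (.mul .t (.v 4)),
    .add (.v 8) (.mul .t (.add (.add (.v 3) (.mul (.v 3) (.add .t (.v 3)))) (.add (.v 5) (.v 6)))),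
    .add (.v 9) (.mul .t (.add (.add (.v 3) (.mul (.v 3) (.add .t (.v 3)))) (.sub (.sub (.v 4) (.mul (.v 4) .t)) (.add (.v 6) (.v 7)))))],
  [.v 0,
    .v 1,
    .v 2,
    .v 3,
    .add (.v 4) .t,
    .v 5,
    .v 6,
    .v 7,
    .sub (.v 8) (.mul .t (.v 5)),
    .sub (.v 9) (.mul .t (.sub (.add (.v 4) (.mul (.v 4) (.add .t (.v 4)))) (.sub (.v 5) (.v 6))))],
  [.v 0,
    .v 1,
    .v 2,
    .v 3,
    .v 4,
    .add (.v 5) .t,
    .v 6,
    .v 7,
    .v 8,
    .v 9],
  [.v 0,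
    .v 1,
    .v 2,
    .v 3,
    .v 4,
    .v 5,
    .add (.v 6) .t,
    .v 7,
    .v 8,
    .v 9],
  [.v 0,
    .v 1,
    .v 2,
    .v 3,
    .v 4,
    .v 5,
    .v 6,
    .add (.v 7) .t,
    .v 8,
    .v 9],
  [.v 0,
    .v 1,
    .v 2,
    .v 3,
    .v 4,
    .v 5,
    .v 6,
    .v 7,
    .add (.v 8) .t,
    .v 9],
  [.v 0,
    .v 1,
    .v 2,
    .v 3,
    .v 4,
    .v 5,
    .v 6,
    .v 7,
    .v 8,
    .add (.v 9) .t]]

noncomputable def R (j : ℕ) : List PE :=
  List.rec (fun _ => [.t, .t, .t, .t, .t, .t, .t, .t, .t, .t]) (fun a _ r n => Nat.rec a (fun m _ => r m) n) Rs j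

theorem R_len : ∀ j, (R j).length = 10
  | 0 | 1 | 2 | 3 | 4 | 5 | 6 | 7 | 8 | 9 => rfl
  | _ + 10 => rfl

/-- the model: `h_0 ^ c_0 ⋯ h_9 ^ c_9` -/
@[ext] structure V where
  c : Fin 10 → ZMod 3

def V.co (a : V) (k : ℕ) : ZMod 3 := if h : k < 10 then a.c ⟨k, h⟩ else 0

def ofF (f : ℕ → ZMod 3) : V := ⟨fun i => f i⟩

theorem co_ofF (f : ℕ → ZMod 3) {k : ℕ} (h : k < 10) : (ofF f).co k = f k := dif_pos h

theorem ext_co {a b : V} (h : ∀ k < 10, a.co k = b.co k) : a = b :=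
  V.ext (funext fun i => by simpa only [V.co, i.2, dif_pos] using h i i.2)

noncomputable def step (j : ℕ) (a : V) (t : ZMod 3) : V := ofF fun k => ((R j).getD k .t).ev a.co t

noncomputable def mulN (a b : V) (n : ℕ) : V := Nat.rec a (fun j x => step j x (b.co j)) n

noncomputable def mul (a b : V) : V := mulN a b 10

noncomputable def invN (a : V) (n : ℕ) : V := Nat.rec a (fun j x => step j x (-x.co j)) n

noncomputable def inv (a : V) : V := ofF fun k => -(invN a k).co k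

/-- the element with the given exponents -/
def kv (e : List ℕ) : V := ofF fun k => cZ (e.getD k 0)

variable {β : Type} {i : ℕ}

def RelV (i : ℕ) (l : List BV) (a : V) : Prop := ∀ k, Rel i (gB l k) (a.co k)

noncomputable def peB (a : List BV) (t : BV) (e : PE) : (BV → β) → β :=
  PE.rec (fun k κ => κ (gB a k)) (fun κ => κ t) (fun _ _ r s κ => r fun x => s fun y => addB x y κ)
    (fun _ _ r s κ => r fun x => s fun y => addB x (negB y) κ)
    (fun _ _ r s κ => r fun x => s fun y => mulB x y κ) e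

theorem peB_ret {l : List BV} {a : V} (h : RelV i l a) {t : BV} {x : ZMod 3} (ht : Rel i t x) (e : PE) :
    Ret (peB (β := β) l t e) fun z => Rel i z (e.ev a.co x) := by
  induction e with
  | v k => exact .pure (h k)
  | t => exact .pure ht
  | add _ _ r s => exact r.bind fun _ a => s.bind fun _ b => addB_ret a b
  | sub _ _ r s => exact r.bind fun _ a => s.bind fun _ b => addB_ret a (negB_rel b)
  | mul _ _ r s => exact r.bind fun _ a => s.bind fun _ b => mulB_ret a b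

/-- evaluate to a constructor -/
noncomputable def fB (x : BV) (κ : BV → β) : β := BV.rec (κ .u) (fun p m => κ (.k p m)) x

theorem fB_eq (x : BV) (κ : BV → β) : fB x κ = κ x := by cases x <;> rfl

noncomputable def rowB (a : List BV) (t : BV) (row : List PE) : (List BV → β) → β :=
  List.rec (fun κ => κ []) (fun e _ r κ => peB a t e fun x => fB x fun x => r fun l => κ (x :: l)) row

theorem rowB_ret {l : List BV} {a : V} (h : RelV i l a) {t : BV} {x : ZMod 3} (ht : Rel i t x) (row : List PE) :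
    Ret (rowB (β := β) l t row) fun r => ∀ k y, (k < row.length → y = (row.getD k .t).ev a.co x) → Rel i (gB r k) y := by
  induction row with
  | nil => exact .pure fun _ _ _ => trivial
  | cons e row ih =>
    obtain ⟨z, e1, hz⟩ := peB_ret (β := β) h ht e
    obtain ⟨r, e2, hr⟩ := ih
    refine ⟨z :: r, fun κ => (e1 _).trans ((fB_eq _ _).trans (e2 _)), fun k y hy => ?_⟩
    cases k with
    | zero => exact hy (Nat.succ_pos _) ▸ hz
    | succ k => exact hr k y fun hk => hy (Nat.succ_lt_succ hk)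

noncomputable def stepB (j : ℕ) (a : List BV) (t : BV) (κ : List BV → β) : β := fB t fun t => rowB a t (R j) κ

theorem stepB_ret {l : List BV} {a : V} (h : RelV i l a) {t : BV} {x : ZMod 3} (ht : Rel i t x) (j : ℕ) :
    Ret (stepB (β := β) j l t) fun r => RelV i r (step j a x) := by
  unfold stepB
  simp only [fB_eq]
  exact (rowB_ret h ht (R j)).mono fun r hr k => hr k _ fun hk => co_ofF _ (R_len j ▸ hk)

noncomputable def mulNB (a b : List BV) (n : ℕ) : (List BV → β) → β :=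
  Nat.rec (fun κ => κ a) (fun j r κ => r fun x => stepB j x (gB b j) κ) n

theorem mulNB_ret {l m : List BV} {a b : V} (h : RelV i l a) (k : RelV i m b) (n : ℕ) :
    Ret (mulNB (β := β) l m n) fun r => RelV i r (mulN a b n) := by
  induction n with
  | zero => exact .pure h
  | succ n ih => exact ih.bind fun _ hx => stepB_ret hx (k n) n

noncomputable def invNB (n : ℕ) : ℕ → List BV → (List BV → β) → β :=
  Nat.rec (fun _ _ κ => κ []) (fun _ r j x κ => fB (negB (gB x j)) fun t => stepB j x t fun y =>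
    r (Nat.succ j) y fun l => κ (t :: l)) n

theorem invNB_ret {a : V} (n : ℕ) : ∀ (j : ℕ) (l : List BV), RelV i l (invN a j) →
    Ret (invNB (β := β) n j l) fun r => ∀ k y, (k < n → y = -(invN a (j + k)).co (j + k)) → Rel i (gB r k) y := by
  induction n with
  | zero => exact fun _ _ _ => .pure fun _ _ _ => trivial
  | succ n ih =>
    intro j l h
    obtain ⟨y, e1, hy⟩ := stepB_ret (β := β) h (negB_rel (h j)) j
    obtain ⟨r, e2, hr⟩ := ih (j + 1) y hy
    refine ⟨negB (gB l j) :: r, fun κ => (fB_eq (negB (gB l j)) fun t => stepB j l t fun y =>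
      invNB n (j + 1) y fun m => κ (t :: m)).trans ((e1 _).trans (e2 _)), fun k z hz => ?_⟩
    cases k with
    | zero => exact hz (Nat.succ_pos _) ▸ negB_rel (h j)
    | succ k => exact hr k z fun hk => by rw [hz (Nat.succ_lt_succ hk), Nat.add_right_comm, Nat.add_assoc]

theorem invB_ret {l : List BV} {a : V} (h : RelV i l a) :
    Ret (invNB (β := β) 10 0 l) fun r => RelV i r (inv a) :=
  (invNB_ret 10 0 l h).mono fun r hr k => hr k _ fun hk => by rw [inv, co_ofF _ hk, Nat.zero_add]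

noncomputable def kB (N : ℕ) (e : List ℕ) : List BV :=
  [cB N (e.getD 0 0), cB N (e.getD 1 0), cB N (e.getD 2 0), cB N (e.getD 3 0), cB N (e.getD 4 0),
    cB N (e.getD 5 0), cB N (e.getD 6 0), cB N (e.getD 7 0), cB N (e.getD 8 0), cB N (e.getD 9 0)]

theorem kB_rel {N : ℕ} (h : N.testBit i = true) (e : List ℕ) : RelV i (kB N e) (kv e)
  | 0 | 1 | 2 | 3 | 4 | 5 | 6 | 7 | 8 | 9 => cB_rel h _
  | _ + 10 => trivial

noncomputable def vB (l : List BV) (g : ℕ) : List BV :=
  [gB l (10 * g), gB l (10 * g + 1), gB l (10 * g + 2), gB l (10 * g + 3), gB l (10 * g + 4),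
    gB l (10 * g + 5), gB l (10 * g + 6), gB l (10 * g + 7), gB l (10 * g + 8), gB l (10 * g + 9)]

theorem vB_rel {l : List BV} {ρ : ℕ → V} (h : ∀ j, Rel i (gB l j) ((ρ (j / 10)).co (j % 10))) (g : ℕ) :
    RelV i (vB l g) (ρ g) := fun k => by
  have e : ∀ k < 10, Rel i (gB l (10 * g + k)) ((ρ g).co k) := fun k hk => by
    have := h (10 * g + k)
    rwa [show (10 * g + k) / 10 = g by omega, show (10 * g + k) % 10 = k by omega] at this
  rcases Nat.lt_or_ge k 10 with hk | hk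
  · have := e k hk
    interval_cases k <;> exact this
  · obtain ⟨k, rfl⟩ := Nat.exists_eq_add_of_le' hk
    trivial

/-! ### terms and formulas -/

inductive Tm
  | v (g : ℕ)
  | k (e : List ℕ)
  | mul (a b : Tm)
  | inv (a : Tm)
  | cm (a b : Tm)
  | p3 (a : Tm)
  | st (j c : ℕ) (a : Tm)

noncomputable def Tm.sem (ρ : ℕ → V) : Tm → V
  | .v g => ρ g
  | .k e => kv e
  | .mul a b => TH3.mul (a.sem ρ) (b.sem ρ)
  | .inv a => TH3.inv (a.sem ρ)
  | .cm a b => TH3.mul (TH3.mul (TH3.mul (a.sem ρ) (b.sem ρ)) (TH3.inv (a.sem ρ))) (TH3.inv (b.sem ρ))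
  | .p3 a => TH3.mul (TH3.mul (a.sem ρ) (a.sem ρ)) (a.sem ρ)
  | .st j c a => step j (a.sem ρ) (cZ c)

noncomputable def tmB (N : ℕ) (σ : ℕ → List BV) (t : Tm) : (List BV → β) → β :=
  Tm.rec (fun g κ => κ (σ g)) (fun e κ => κ (kB N e)) (fun _ _ r s κ => r fun x => s fun y => mulNB x y 10 κ)
    (fun _ r κ => r fun x => invNB 10 0 x κ)
    (fun _ _ r s κ => r fun x => s fun y => mulNB x y 10 fun z => invNB 10 0 x fun x' => mulNB z x' 10 fun w =>
      invNB 10 0 y fun y' => mulNB w y' 10 κ)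
    (fun _ r κ => r fun x => mulNB x x 10 fun z => mulNB z x 10 κ)
    (fun j c _ r κ => r fun x => stepB j x (cB N c) κ) t

theorem tmB_ret {N : ℕ} (hN : N.testBit i = true) {σ : ℕ → List BV} {ρ : ℕ → V} (h : ∀ g, RelV i (σ g) (ρ g))
    (t : Tm) : Ret (tmB (β := β) N σ t) fun r => RelV i r (t.sem ρ) := by
  induction t with
  | v g => exact .pure (h g)
  | k e => exact .pure (kB_rel hN e)
  | mul _ _ r s => exact r.bind fun _ a => s.bind fun _ b => mulNB_ret a b 10
  | inv _ r => exact r.bind fun _ a => invB_ret a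
  | cm _ _ r s =>
    exact r.bind fun _ a => s.bind fun _ b => (mulNB_ret a b 10).bind fun _ z => (invB_ret a).bind fun _ a' =>
      (mulNB_ret z a' 10).bind fun _ w => (invB_ret b).bind fun _ b' => mulNB_ret w b' 10
  | p3 _ r => exact r.bind fun _ a => (mulNB_ret a a 10).bind fun _ z => mulNB_ret z a 10
  | st j c _ r => exact r.bind fun _ a => stepB_ret a (cB_rel hN c) j

inductive Ex
  | co (t : Tm) (k : ℕ)
  | c (n : ℕ)
  | add (a b : Ex)
  | neg (a : Ex)
  | mul (a b : Ex)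

noncomputable def Ex.sem (ρ : ℕ → V) : Ex → ZMod 3
  | .co t k => (t.sem ρ).co k
  | .c n => cZ n
  | .add a b => a.sem ρ + b.sem ρ
  | .neg a => -a.sem ρ
  | .mul a b => a.sem ρ * b.sem ρ

noncomputable def exB (N : ℕ) (σ : ℕ → List BV) (e : Ex) : (BV → β) → β :=
  Ex.rec (fun t k κ => tmB N σ t fun x => κ (gB x k)) (fun n κ => κ (cB N n))
    (fun _ _ r s κ => r fun x => s fun y => addB x y κ) (fun _ r κ => r fun x => κ (negB x))
    (fun _ _ r s κ => r fun x => s fun y => mulB x y κ) e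

theorem exB_ret {N : ℕ} (hN : N.testBit i = true) {σ : ℕ → List BV} {ρ : ℕ → V} (h : ∀ g, RelV i (σ g) (ρ g))
    (e : Ex) : Ret (exB (β := β) N σ e) fun r => Rel i r (e.sem ρ) := by
  induction e with
  | co t k => exact (tmB_ret hN h t).bind fun _ a => .pure (a k)
  | c n => exact .pure (cB_rel hN n)
  | add _ _ r s => exact r.bind fun _ a => s.bind fun _ b => addB_ret a b
  | neg _ r => exact r.bind fun _ a => .pure (negB_rel a)
  | mul _ _ r s => exact r.bind fun _ a => s.bind fun _ b => mulB_ret a b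

/-- points where `P` surely holds, points where it surely fails -/
def RelP (i : ℕ) (s : ℕ × ℕ) (P : Prop) : Prop := (s.1.testBit i = true → P) ∧ (s.2.testBit i = true → ¬ P)

noncomputable def zB (N : ℕ) (x : BV) (κ : ℕ × ℕ → β) : β :=
  BV.rec (κ (0, 0)) (fun p m => fN (Nat.lor p m) fun s => fN (Nat.xor N s) fun t => κ (t, s)) x

theorem zB_ret {N : ℕ} (hN : N.testBit i = true) {x : BV} {v : ZMod 3} (h : Rel i x v) :
    Ret (zB (β := β) N x) fun s => RelP i s (v = 0) := by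
  cases x with
  | u => exact .pure ⟨by simp, by simp⟩
  | k p m =>
    refine ⟨_, fun κ => by simp only [zB, fN_eq]; rfl, ?_⟩
    simp only [RelP, tor, txor, h.1, h.2, hN]
    clear h; revert v; decide

noncomputable def andB (s t : ℕ × ℕ) (κ : ℕ × ℕ → β) : β :=
  Prod.rec (fun a b => Prod.rec (fun c d => fN (Nat.land a c) fun x => fN (Nat.lor b d) fun y => κ (x, y)) t) s

theorem andB_ret {s t : ℕ × ℕ} {P Q : Prop} (h : RelP i s P) (k : RelP i t Q) :
    Ret (andB (β := β) s t) fun r => RelP i r (P ∧ Q) := by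
  refine ⟨(Nat.land s.1 t.1, Nat.lor s.2 t.2), fun κ => by simp only [andB, fN_eq], ?_, ?_⟩
  · simp only [tand, Bool.and_eq_true]
    exact fun e => ⟨h.1 e.1, k.1 e.2⟩
  · simp only [tor, Bool.or_eq_true]
    exact fun e c => e.elim (fun e => h.2 e c.1) fun e => k.2 e c.2

noncomputable def notB (s : ℕ × ℕ) : ℕ × ℕ := Prod.rec (fun a b => (b, a)) s

theorem notB_rel {s : ℕ × ℕ} {P : Prop} (h : RelP i s P) : RelP i (notB s) (¬ P) :=
  ⟨h.2, fun e c => c (h.1 e)⟩

theorem RelP.congr {s : ℕ × ℕ} {P Q : Prop} (h : RelP i s P) (e : P ↔ Q) : RelP i s Q := propext e ▸ h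

noncomputable def allB (N : ℕ) (f : ℕ → (BV → β) → β) (ks : List ℕ) : (ℕ × ℕ → β) → β :=
  List.rec (fun κ => κ (N, 0)) (fun k _ r κ => f k fun x => zB N x fun s => r fun t => andB s t κ) ks

theorem allB_ret {N : ℕ} (hN : N.testBit i = true) {f : ℕ → (BV → β) → β} {g : ℕ → ZMod 3}
    (h : ∀ k, Ret (f k) fun x => Rel i x (g k)) (ks : List ℕ) :
    Ret (allB N f ks) fun s => RelP i s (∀ k ∈ ks, g k = 0) := by
  induction ks with
  | nil => exact .pure ⟨by simp, by simp⟩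
  | cons k ks ih =>
    exact (h k).bind fun _ a => (zB_ret hN a).bind fun _ s => ih.bind fun _ t =>
      (andB_ret s t).mono fun _ e => e.congr (by simp)

inductive Fm
  | z (t : Tm) (ks : List ℕ)
  | eq (a b : Tm)
  | ez (e : Ex)
  | and (a b : Fm)
  | or (a b : Fm)
  | not (a : Fm)
  | imp (a b : Fm)
  | lt (t : Tm) (a : Fm)

noncomputable def cons {α : Type} (a : α) (ρ : ℕ → α) (n : ℕ) : α := Nat.rec a (fun m _ => ρ m) n

noncomputable def Fm.sem : Fm → (ℕ → V) → Prop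
  | .z t ks, ρ => ∀ k ∈ ks, (t.sem ρ).co k = 0
  | .eq a b, ρ => a.sem ρ = b.sem ρ
  | .ez e, ρ => e.sem ρ = 0
  | .and a b, ρ => a.sem ρ ∧ b.sem ρ
  | .or a b, ρ => a.sem ρ ∨ b.sem ρ
  | .not a, ρ => ¬ a.sem ρ
  | .imp a b, ρ => a.sem ρ → b.sem ρ
  | .lt t a, ρ => a.sem (cons (t.sem ρ) ρ)

noncomputable def fmB (N : ℕ) (f : Fm) : (ℕ → List BV) → (ℕ × ℕ → β) → β :=
  Fm.rec (fun t ks σ κ => tmB N σ t fun x => allB N (fun k κ => κ (gB x k)) ks κ)
    (fun a b σ κ => tmB N σ a fun x => tmB N σ b fun y =>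
      allB N (fun k => addB (gB x k) (negB (gB y k))) [0, 1, 2, 3, 4, 5, 6, 7, 8, 9] κ)
    (fun e σ κ => exB N σ e fun x => zB N x κ)
    (fun _ _ r s σ κ => r σ fun x => s σ fun y => andB x y κ)
    (fun _ _ r s σ κ => r σ fun x => s σ fun y => andB (notB x) (notB y) fun z => κ (notB z))
    (fun _ r σ κ => r σ fun x => κ (notB x))
    (fun _ _ r s σ κ => r σ fun x => s σ fun y => andB x (notB y) fun z => κ (notB z))
    (fun t _ r σ κ => tmB N σ t fun x => r (cons x σ) κ) f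

theorem fmB_ret {N : ℕ} (hN : N.testBit i = true) (f : Fm) : ∀ {σ : ℕ → List BV} {ρ : ℕ → V},
    (∀ g, RelV i (σ g) (ρ g)) → Ret (fmB (β := β) N f σ) fun s => RelP i s (f.sem ρ) := by
  induction f with
  | z t ks => exact fun h => (tmB_ret hN h t).bind fun _ a => allB_ret hN (fun k => .pure (a k)) ks
  | eq a b =>
    refine fun {σ ρ} h => (tmB_ret hN h a).bind fun _ x => (tmB_ret hN h b).bind fun _ y =>
      (allB_ret hN (fun k => addB_ret (x k) (negB_rel (y k))) _).mono fun _ e => e.congr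
        ⟨fun c => ext_co fun k hk => add_neg_eq_zero.1 (c k (by interval_cases k <;> simp)), fun c k _ => ?_⟩
    rw [show a.sem ρ = b.sem ρ from c, add_neg_cancel]
  | ez e => exact fun h => (exB_ret hN h e).bind fun _ a => zB_ret hN a
  | and _ _ r s => exact fun h => (r h).bind fun _ a => (s h).bind fun _ b => andB_ret a b
  | or _ _ r s =>
    exact fun h => (r h).bind fun _ a => (s h).bind fun _ b => (andB_ret (notB_rel a) (notB_rel b)).bind
      fun _ c => .pure ((notB_rel c).congr or_iff_not_and_not.symm)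
  | not _ r => exact fun h => (r h).bind fun _ a => .pure (notB_rel a)
  | imp _ _ r s =>
    exact fun h => (r h).bind fun _ a => (s h).bind fun _ b => (andB_ret a (notB_rel b)).bind
      fun _ c => .pure ((notB_rel c).congr ⟨fun k p => by_contra fun q => k ⟨p, q⟩, fun k p => p.2 (k p.1)⟩)
  | lt t _ r =>
    refine fun h => (tmB_ret hN h t).bind fun _ a => r fun g => ?_
    cases g with
    | zero => exact a
    | succ g => exact h g

noncomputable def chk (cs : List ℕ) (f : Fm) : Bool :=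
  build cs fun s => Prod.rec (fun _ s => Prod.rec (fun N l => fmB N f (vB l) fun r =>
    Prod.rec (fun a _ => Nat.beq a N) r) s) s

theorem chk_raw {cs : List ℕ} {f : Fm} (h : chk cs f = true) (ρ : ℕ → V)
    (hz : ∀ j, cs.getD j 2 = 0 → (ρ (j / 10)).co (j % 10) = 0) : f.sem ρ := by
  obtain ⟨⟨L, N, l⟩, e, -, -, h3⟩ := build_ret (β := Bool) cs
  obtain ⟨i, -, hN, k⟩ := h3 _ hz
  obtain ⟨⟨a, b⟩, e', r⟩ := fmB_ret (β := Bool) hN f (vB_rel k)
  have e2 : chk cs f = Nat.beq a N := (e _).trans (e' _)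
  have : a = N := Nat.eq_of_beq_eq_true (e2.symm.trans h)
  exact r.1 (this ▸ hN)

end Cfsg.Agent.TH3
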